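import Cfsg.Agent.J1Unique.Coord
import Cfsg.Agent.Alt.Automorphism

/-!
Facts on `A₅` and its automorphisms fixing the standard four group, used for groups with weak
closure `2 × A₅` of an involution.
-/

set_option autoImplicit false
set_option maxRecDepth 20000

namespace Cfsg.Agent.TwoWeak

open Cfsg.Agent.J1Unique
open Equiv

theorem sq_prod : ∀ a : A5, ∃ b c : A5, a = b * b * (c * c) := by decide +kernel

theorem aR_commutator : ∃ b c : A5, b * c * b⁻¹ * c⁻¹ = aR := by decide +kernel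

theorem eq_one_of_commute : ∀ a : A5, a * aR = aR * a → a * aC = aC * a → a = 1 := by
  decide +kernel

theorem pow_eight_five : ∀ a : A5, a ^ 8 = 1 → a * a = 1 := by decide +kernel

theorem inV_sq : ∀ a : A5, InV a → a * a = 1 := by decide +kernel

theorem inV_mul : ∀ a b : A5, InV a → InV b → InV (a * b) := by decide +kernel

theorem aR_ne : aR ≠ 1 ∧ aS ≠ 1 ∧ aR ≠ aS ∧ aC * aR * aC⁻¹ = aS := by decide +kernel

/-- Every automorphism of `A₅` is conjugation by a permutation. -/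
theorem exists_tw (φ : MulAut A5) : ∃ p : Perm (Fin 5), tw p = φ := by
  obtain ⟨p, hp⟩ := (Cfsg.Agent.Alt.conjNormal_bijective (α := Fin 5) (by simp) (by simp)).2 φ
  exact ⟨p, hp⟩

theorem tw_injective {p q : Perm (Fin 5)} (h : tw p = tw q) : p = q :=
  (Cfsg.Agent.Alt.conjNormal_bijective (α := Fin 5) (by simp) (by simp)).1 h

theorem tw_one : tw (1 : Perm (Fin 5)) = 1 := map_one (MulAut.conjNormal)

theorem tw_mul (p q : Perm (Fin 5)) (a : A5) : tw (p * q) a = tw p (tw q a) := by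
  simp [tw, map_mul]

theorem tw_fix_inV {p : Perm (Fin 5)} (hR : tw p aR = aR) (hS : tw p aS = aS) :
    ∀ v : A5, InV v → tw p v = v := by
  rintro v (rfl | rfl | rfl | rfl)
  · exact map_one _
  · exact hR
  · exact hS
  · rw [map_mul, hR, hS]

theorem two_element_perm : ∀ p : Perm (Fin 5), p ^ 8 = 1 → InV (tw p aR) → InV (tw p aS) →
    (tw p aR = aR ∧ tw p aS = aS) ∨ (tw p aR = aR ∧ tw p aS = aR * aS) ∨
    (tw p aS = aS ∧ tw p aR = aR * aS) ∨ (tw p aR = aS ∧ tw p aS = aR) := by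
  decide +kernel

theorem inV_rels : aR * aR = 1 ∧ aS * aS = 1 ∧ aS * aR = aR * aS ∧ aR * (aR * aS) = aS ∧
    aR * aS * aS = aR ∧ aS * (aR * aS) = aR ∧ aR * aS * aR = aS ∧ aR * aS * (aR * aS) = 1 ∧
    aR * aS ≠ 1 := by
  decide +kernel

/-- A `2`-element normalising the four group either fixes it or is a transvection of it. -/
theorem two_element_case (p : Perm (Fin 5)) (hp : p ^ 8 = 1) (hR : InV (tw p aR))
    (hS : InV (tw p aS)) :
    (tw p aR = aR ∧ tw p aS = aS) ∨ ∃ v₀ : A5, InV v₀ ∧ v₀ ≠ 1 ∧ tw p v₀ = v₀ ∧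
      ∀ v : A5, InV v → tw p v = v ∨ v * tw p v = v₀ := by
  obtain ⟨hRR, hSS, hSR, h1, h2, h3, h4, h5, h6⟩ := inV_rels
  rcases two_element_perm p hp hR hS with h | ⟨e1, e2⟩ | ⟨e1, e2⟩ | ⟨e1, e2⟩
  · exact Or.inl h
  · refine Or.inr ⟨aR, Or.inr (Or.inl rfl), aR_ne.1, e1, ?_⟩
    rintro v (rfl | rfl | rfl | rfl)
    · exact Or.inl (map_one _)
    · exact Or.inl e1
    · exact Or.inr (by rw [e2, h3])
    · exact Or.inr (by rw [map_mul, e1, e2, h1, h2])
  · refine Or.inr ⟨aS, Or.inr (Or.inr (Or.inl rfl)), aR_ne.2.1, e1, ?_⟩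
    rintro v (rfl | rfl | rfl | rfl)
    · exact Or.inl (map_one _)
    · exact Or.inr (by rw [e2, h1])
    · exact Or.inl e1
    · exact Or.inr (by rw [map_mul, e1, e2, h2, h4])
  · refine Or.inr ⟨aR * aS, Or.inr (Or.inr (Or.inr rfl)), h6, by rw [map_mul, e1, e2, hSR], ?_⟩
    rintro v (rfl | rfl | rfl | rfl)
    · exact Or.inl (map_one _)
    · exact Or.inr (by rw [e1])
    · exact Or.inr (by rw [e2, hSR])
    · exact Or.inl (by rw [map_mul, e1, e2, hSR])

theorem sq_eq_one_of_fix : ∀ p : Perm (Fin 5), tw p aR = aR → tw p aS = aS → p * p = 1 := by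
  decide +kernel

theorem three_case : ∀ p : Perm (Fin 5), InV (tw p aR) → InV (tw p aS) →
    (∃ i : Fin 3, tw p aR = aC ^ (i : ℕ) * aR * (aC ^ (i : ℕ))⁻¹ ∧
      tw p aS = aC ^ (i : ℕ) * aS * (aC ^ (i : ℕ))⁻¹) ∨
    (tw p (tw p aR) = aR ∧ tw p (tw p aS) = aS) := by
  decide +kernel

end Cfsg.Agent.TwoWeak
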