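import Mathlib.GroupTheory.Transfer
import Mathlib.GroupTheory.Sylow

/-!
A central elementary `2`-subgroup of a Sylow 2-subgroup, meeting the squares trivially, has a
complement in its centraliser that is invariant under the normaliser.
-/

set_option autoImplicit false

namespace Cfsg.Agent.TwoWeak

open Subgroup
open scoped IsMulCommutative

theorem exists_retraction {P : Type*} [Group P] [Finite P] (V : Subgroup P) (hVc : V ≤ center P)
    (hsq : closure {x : P | ∃ s, x = s * s} ⊓ V = ⊥) :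
    ∃ r : P →* V, ∀ v : V, r v = v := by
  classical
  set Q := closure {x : P | ∃ s, x = s * s} with hQ
  obtain ⟨L, ⟨hQL, hLV⟩, hmax⟩ := (Set.toFinite {L : Subgroup P | Q ≤ L ∧ L ⊓ V = ⊥}).exists_maximal
    ⟨Q, le_rfl, hsq⟩
  have hsqL : ∀ s : P, s * s ∈ L := fun s => hQL (subset_closure ⟨s, rfl⟩)
  haveI : L.Normal := ⟨fun l hl g => by
    have e : g * l * g⁻¹ = (g * g) * ((g⁻¹ * l) * (g⁻¹ * l)) * (l * l)⁻¹ * l := by group
    rw [e]
    exact mul_mem (mul_mem (mul_mem (hsqL _) (hsqL _)) (inv_mem (hsqL _))) hl⟩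
  have htop : ∀ s : P, ∃ l ∈ L, ∃ v ∈ V, s = l * v := by
    intro s
    by_contra hs
    have hL' : Q ≤ L ⊔ zpowers s ∧ (L ⊔ zpowers s) ⊓ V = ⊥ := by
      refine ⟨hQL.trans le_sup_left, (Subgroup.eq_bot_iff_forall _).2 ?_⟩
      rintro x ⟨hx, hxV⟩
      obtain ⟨l, hl, y, hy, rfl⟩ := mem_sup_of_normal_left.1 hx
      obtain ⟨k, rfl⟩ := mem_zpowers_iff.1 hy
      have heven : ∀ j : ℤ, s ^ (2 * j) ∈ L := fun j => by
        rw [zpow_mul, zpow_two]; exact zpow_mem (hsqL s) j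
      rcases Int.even_or_odd k with ⟨j, rfl⟩ | ⟨j, rfl⟩
      · rw [← two_mul] at hxV ⊢
        have h1 : l * s ^ (2 * j) ∈ L ⊓ V := ⟨mul_mem hl (heven j), hxV⟩
        rw [hLV, mem_bot] at h1
        exact h1
      · exfalso
        refine hs ⟨(l * s ^ (2 * j))⁻¹, inv_mem (mul_mem hl (heven j)),
          l * s ^ (2 * j + 1), hxV, ?_⟩
        rw [zpow_add_one]; group
    have hle := hmax hL' le_sup_left
    exact hs ⟨s, hle (mem_sup_right (mem_zpowers s)), 1, one_mem V, (mul_one s).symm⟩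
  choose l hl v hv he using htop
  have huniq : ∀ s, ∀ l' ∈ L, ∀ v' ∈ V, s = l' * v' → v s = v' := by
    intro s l' hl' v' hv' h
    have h1 : (l s)⁻¹ * l' = v s * v'⁻¹ := by
      rw [inv_mul_eq_iff_eq_mul, ← mul_assoc, ← he s, h, mul_inv_cancel_right]
    have h2 : v s * v'⁻¹ ∈ L ⊓ V :=
      ⟨show v s * v'⁻¹ ∈ L from h1 ▸ mul_mem (inv_mem (hl s)) hl', show v s * v'⁻¹ ∈ V from mul_mem (hv s) (inv_mem hv')⟩
    rw [hLV, mem_bot, mul_inv_eq_one] at h2
    exact h2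
  refine ⟨MonoidHom.mk' (fun s => ⟨v s, hv s⟩) fun a b => Subtype.ext ?_, fun x => Subtype.ext ?_⟩
  · refine huniq _ (l a * l b) (mul_mem (hl a) (hl b)) _ (mul_mem (hv a) (hv b)) ?_
    conv_lhs => rw [he a, he b]
    calc l a * v a * (l b * v b) = l a * (v a * l b) * v b := by group
      _ = l a * (l b * v a) * v b := by rw [mem_center_iff.1 (hVc (hv a)) (l b)]
      _ = l a * l b * (v a * v b) := by group
  · exact huniq _ 1 (one_mem L) _ x.2 (one_mul _).symm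

variable {G : Type*} [Group G] [Finite G]

theorem pow_odd_eq_self {M : Type*} [Monoid M] {v : M} (h : v * v = 1) {n : ℕ} (hn : Odd n) :
    v ^ n = v := by
  obtain ⟨k, rfl⟩ := hn
  rw [pow_succ, pow_mul, pow_two, h, one_pow, one_mul]

/-- The retraction of the centraliser. -/
theorem exists_transfer (S : Sylow 2 G) (V : Subgroup G) (hVS : V ≤ S)
    (hV2 : ∀ v ∈ V, v * v = 1) (hSC : (S : Subgroup G) ≤ centralizer (V : Set G))
    (hsq : closure {x : G | ∃ s ∈ (S : Subgroup G), x = s * s} ⊓ V = ⊥) :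
    ∃ τ : ↥(centralizer (V : Set G)) →* V,
      ∀ (c : ↥(centralizer (V : Set G))) (hc : (c : G) ∈ V), τ c = ⟨c, hc⟩ := by
  classical
  haveI : Fact (Nat.Prime 2) := ⟨Nat.prime_two⟩
  haveI hVcomm : IsMulCommutative V := ⟨⟨fun a b => Subtype.ext
    (mem_centralizer_iff.1 (hSC (hVS b.2)) a a.2)⟩⟩
  set CV := centralizer (V : Set G) with hCV
  set P := (S : Subgroup G).subgroupOf CV with hP
  have hVCV : V ≤ CV := hVS.trans hSC
  let V' : Subgroup P := (V.subgroupOf CV).subgroupOf P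
  have hVc : V' ≤ center P := by
    intro x hx
    refine mem_center_iff.2 fun y => Subtype.ext (Subtype.ext ?_)
    exact (mem_centralizer_iff.1 (y : CV).2 _ hx).symm
  have hsq' : closure {x : P | ∃ s, x = s * s} ⊓ V' = ⊥ := by
    rw [Subgroup.eq_bot_iff_forall]
    rintro x ⟨hxQ, hxV⟩
    have h1 : ((x : CV) : G) ∈ closure {x : G | ∃ s ∈ (S : Subgroup G), x = s * s} ⊓ V := by
      refine ⟨?_, hxV⟩
      have h2 := mem_map_of_mem (CV.subtype.comp P.subtype) hxQ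
      rw [MonoidHom.map_closure] at h2
      refine closure_mono ?_ h2
      rintro _ ⟨_, ⟨s, rfl⟩, rfl⟩
      exact ⟨((s : CV) : G), s.2, rfl⟩
    rw [hsq, mem_bot] at h1
    exact Subtype.ext (Subtype.ext h1)
  obtain ⟨r, hr⟩ := exists_retraction V' hVc hsq'
  let f : V' →* V :=
    { toFun := fun x => ⟨(((x : P) : CV) : G), x.2⟩
      map_one' := rfl
      map_mul' := fun _ _ => rfl }
  refine ⟨MonoidHom.transfer (f.comp r), fun c hc => ?_⟩
  have hodd : Odd P.index := by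
    rw [← Nat.not_even_iff_odd, even_iff_two_dvd]
    exact (S.subtype hSC).not_dvd_index
  have hcz : c ∈ center CV := mem_center_iff.2 fun y =>
    Subtype.ext (mem_centralizer_iff.1 y.2 _ hc).symm
  have hcP : c ∈ P := hVS hc
  rw [MonoidHom.transfer_eq_pow (f.comp r) c fun k g₀ _ => by
    rw [mul_assoc, ← mem_center_iff.1 (pow_mem hcz k) g₀, inv_mul_cancel_left]]
  have hpow : (⟨c ^ P.index, pow_mem hcP _⟩ : P) = ⟨c, hcP⟩ := Subtype.ext (Subtype.ext (by
    push_cast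
    exact pow_odd_eq_self (hV2 _ hc) hodd))
  simp only [MonoidHom.comp_apply]
  rw [show ∀ h, (⟨c ^ P.index, h⟩ : P) = ⟨c, hcP⟩ from fun _ => hpow]
  have := hr ⟨⟨c, hcP⟩, hc⟩
  rw [show r ⟨c, hcP⟩ = ⟨⟨c, hcP⟩, hc⟩ from this]
  rfl

/-- An invariant complement of `V` in its centraliser. -/
theorem exists_complement (S : Sylow 2 G) (V : Subgroup G) (hVS : V ≤ S)
    (hV2 : ∀ v ∈ V, v * v = 1) (hSC : (S : Subgroup G) ≤ centralizer (V : Set G))
    (hSN : (S : Subgroup G) ≤ normalizer (V : Set G))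
    (hsq : closure {x : G | ∃ s ∈ (S : Subgroup G), x = s * s} ⊓ V = ⊥) :
    ∃ K : Subgroup G, K ≤ centralizer (V : Set G) ∧
      (∀ n ∈ normalizer (V : Set G), ∀ x ∈ K, n * x * n⁻¹ ∈ K) ∧ K ⊓ V = ⊥ ∧
      ∀ c ∈ centralizer (V : Set G), ∃ v ∈ V, ∃ k ∈ K, c = v * k := by
  classical
  haveI : Fact (Nat.Prime 2) := ⟨Nat.prime_two⟩
  haveI hVcomm : IsMulCommutative V := ⟨⟨fun a b => Subtype.ext
    (mem_centralizer_iff.1 (hSC (hVS b.2)) a a.2)⟩⟩
  set CV := centralizer (V : Set G) with hCV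
  set NV := normalizer (V : Set G) with hNV
  obtain ⟨τ₁, hτ₁⟩ : ∃ τ : ↥CV →* V, ∀ (c : CV) (hc : (c : G) ∈ V), τ c = ⟨c, hc⟩ :=
    exists_transfer S V hVS hV2 hSC hsq
  have hVCV : V ≤ CV := hVS.trans hSC
  have hconjV : ∀ n ∈ NV, ∀ v ∈ V, n * v * n⁻¹ ∈ V := fun n hn v hv =>
    (mem_normalizer_iff.1 hn v).1 hv
  have hconjC : ∀ n ∈ NV, ∀ c ∈ CV, n * c * n⁻¹ ∈ CV := by
    intro n hn c hc
    refine mem_centralizer_iff.2 fun v hv => ?_
    have h := mem_centralizer_iff.1 hc _ (hconjV n⁻¹ (inv_mem hn) v hv)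
    rw [inv_inv] at h
    calc v * (n * c * n⁻¹) = n * ((n⁻¹ * v * n) * c) * n⁻¹ := by group
      _ = n * (c * (n⁻¹ * v * n)) * n⁻¹ := by rw [h]
      _ = n * c * n⁻¹ * v := by group
  -- the translate of the retraction by an element of the normaliser
  let tr : NV → CV → V := fun n c => ⟨(n : G) *
    (τ₁ ⟨(n : G)⁻¹ * c * n, by simpa using hconjC _ (inv_mem n.2) c c.2⟩ : G) * (n : G)⁻¹,
    hconjV n n.2 _ (τ₁ _).2⟩
  have htr : ∀ (n : NV) (c : CV) (h : (n : G)⁻¹ * c * n ∈ CV),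
      (tr n c : G) = (n : G) * (τ₁ ⟨_, h⟩ : G) * (n : G)⁻¹ := fun _ _ _ => rfl
  have hwd : ∀ (a b : NV), (a : G)⁻¹ * b ∈ CV → tr a = tr b := by
    intro a b hk
    funext c
    set k : CV := ⟨(a : G)⁻¹ * b, hk⟩
    have h1 : (a : G)⁻¹ * c * a ∈ CV := by simpa using hconjC _ (inv_mem a.2) c c.2
    have h2 : (b : G)⁻¹ * c * b ∈ CV := by simpa using hconjC _ (inv_mem b.2) c c.2
    refine Subtype.ext ?_
    rw [htr a c h1, htr b c h2]
    have e : (⟨(b : G)⁻¹ * c * b, h2⟩ : CV) = k⁻¹ * ⟨_, h1⟩ * k := Subtype.ext (by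
      simp [k]; group)
    rw [e, map_mul, map_mul, map_inv]
    have e2 : ((τ₁ k)⁻¹ * τ₁ ⟨_, h1⟩ * τ₁ k : V) = τ₁ ⟨_, h1⟩ := by
      rw [mul_comm (τ₁ k)⁻¹, mul_assoc, inv_mul_cancel, mul_one]
    rw [e2]
    set v := τ₁ ⟨_, h1⟩
    have h3 : Commute ((a : G)⁻¹ * b) (v : G) := (mem_centralizer_iff.1 hk _ v.2).symm
    calc (a : G) * v * (a : G)⁻¹ = a * (v * ((a : G)⁻¹ * b)) * (b : G)⁻¹ := by group
      _ = a * (((a : G)⁻¹ * b) * v) * (b : G)⁻¹ := by rw [h3.eq]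
      _ = b * v * (b : G)⁻¹ := by group
  let Q := NV ⧸ CV.subgroupOf NV
  letI : Fintype Q := Fintype.ofFinite Q
  let F : Q → CV → V := Quotient.lift tr fun a b hab => hwd a b (by
    have := QuotientGroup.leftRel_apply.1 hab
    simpa [mem_subgroupOf] using this)
  have hF : ∀ n : NV, F ((n : NV) : Q) = tr n := fun _ => rfl
  have htrmul : ∀ (n : NV) (c d : CV), tr n (c * d) = tr n c * tr n d := by
    intro n c d
    have h1 : (n : G)⁻¹ * c * n ∈ CV := by simpa using hconjC _ (inv_mem n.2) c c.2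
    have h2 : (n : G)⁻¹ * d * n ∈ CV := by simpa using hconjC _ (inv_mem n.2) d d.2
    have h3 : (n : G)⁻¹ * (c * d : CV) * n ∈ CV := by
      simpa using hconjC _ (inv_mem n.2) _ (c * d : CV).2
    refine Subtype.ext ?_
    rw [htr n (c * d) h3]
    show _ = ((tr n c : V) : G) * ((tr n d : V) : G)
    rw [htr n c h1, htr n d h2]
    have e : (⟨_, h3⟩ : CV) = ⟨_, h1⟩ * ⟨_, h2⟩ := Subtype.ext (by push_cast; group)
    rw [e, map_mul, Subgroup.coe_mul]
    group
  let τ : CV →* V := MonoidHom.mk' (fun c => ∏ q, F q c) fun c d => by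
    rw [← Finset.prod_mul_distrib]
    refine Finset.prod_congr rfl fun q _ => ?_
    induction q using QuotientGroup.induction_on with
    | _ n => rw [hF]; exact htrmul n c d
  have hodd : Odd (Fintype.card Q) := by
    rw [← Nat.card_eq_fintype_card]
    show Odd (CV.relIndex NV)
    have h2 := relIndex_mul_index (inf_le_right : CV ⊓ NV ≤ NV)
    rw [inf_relIndex_right] at h2
    refine Odd.of_dvd_nat ?_ ((Dvd.intro _ h2).trans (index_dvd_of_le (le_inf hSC hSN)))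
    rw [← Nat.not_even_iff_odd, even_iff_two_dvd]
    exact S.not_dvd_index
  have hτV : ∀ (c : CV) (hc : (c : G) ∈ V), τ c = ⟨c, hc⟩ := by
    intro c hc
    show ∏ q, F q c = _
    rw [Finset.prod_eq_pow_card (b := (⟨c, hc⟩ : V)), Finset.card_univ]
    · exact pow_odd_eq_self (Subtype.ext (hV2 _ hc)) hodd
    · intro q _
      induction q using QuotientGroup.induction_on with
      | _ n =>
        rw [hF]
        have h1 : (n : G)⁻¹ * c * n ∈ V := by simpa using hconjV _ (inv_mem n.2) _ hc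
        refine Subtype.ext ?_
        rw [htr n c (hVCV h1), hτ₁ ⟨_, hVCV h1⟩ h1]
        show (n : G) * ((n : G)⁻¹ * c * n) * (n : G)⁻¹ = c
        group
  refine ⟨τ.ker.map CV.subtype, map_subtype_le _, ?_, ?_, ?_⟩
  · rintro n hn _ ⟨c, hc, rfl⟩
    refine ⟨⟨n * c * n⁻¹, hconjC n hn c c.2⟩, ?_, rfl⟩
    rw [SetLike.mem_coe, MonoidHom.mem_ker] at hc ⊢
    set n' : NV := ⟨n, hn⟩
    have key : ∀ q : Q, (F (n' • q) ⟨n * c * n⁻¹, hconjC n hn c c.2⟩ : G) =
        n * (F q c : G) * n⁻¹ := by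
      intro q
      induction q using QuotientGroup.induction_on with
      | _ m =>
        show (tr (n' * m) _ : G) = n * (tr m c : G) * n⁻¹
        have h1 : (m : G)⁻¹ * c * m ∈ CV := by simpa using hconjC _ (inv_mem m.2) c c.2
        have e : ((n' * m : NV) : G)⁻¹ * (n * c * n⁻¹) * ((n' * m : NV) : G) =
            (m : G)⁻¹ * c * m := by simp [n']; group
        rw [htr (n' * m) ⟨n * c * n⁻¹, _⟩ (e.symm ▸ h1), htr m c h1]
        simp only [e]
        simp [n']; group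
    let cj : V →* V :=
      { toFun := fun v => ⟨n * v * n⁻¹, hconjV n hn v v.2⟩
        map_one' := Subtype.ext (by simp)
        map_mul' := fun a b => Subtype.ext (by push_cast; group) }
    show ∏ q, F q _ = 1
    rw [← Equiv.prod_comp (MulAction.toPerm n' : Equiv.Perm Q)]
    have : ∏ q, F q c = 1 := hc
    rw [← map_one cj, ← this, map_prod]
    exact Finset.prod_congr rfl fun q _ => Subtype.ext (key q)
  · rw [Subgroup.eq_bot_iff_forall]
    rintro x ⟨⟨c, hc, rfl⟩, hxV⟩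
    rw [SetLike.mem_coe, MonoidHom.mem_ker, hτV c hxV] at hc
    exact congrArg Subtype.val hc
  · intro c hc
    set v := τ ⟨c, hc⟩
    refine ⟨v, v.2, (v : G)⁻¹ * c, ⟨⟨(v : G)⁻¹ * c, mul_mem (inv_mem (hVCV v.2)) hc⟩, ?_, rfl⟩,
      by group⟩
    rw [SetLike.mem_coe, MonoidHom.mem_ker]
    have e : (⟨(v : G)⁻¹ * c, mul_mem (inv_mem (hVCV v.2)) hc⟩ : CV) =
        ⟨(v : G), hVCV v.2⟩⁻¹ * ⟨c, hc⟩ := Subtype.ext rfl
    rw [e, map_mul, map_inv, hτV ⟨(v : G), hVCV v.2⟩ v.2]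
    exact inv_mul_cancel v

end Cfsg.Agent.TwoWeak
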