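import Cfsg.Agent.SporB.J1Spectrum
import Mathlib.GroupTheory.SpecificGroups.Cyclic

/-!
An odd order subgroup of `J₁` has order divisible by at most one of 7, 11, 19.
-/

set_option autoImplicit false
set_option maxRecDepth 20000

namespace Cfsg.Agent.TwoWeak

open Subgroup

/-- The Sylow test at `p` for a group of order `N` with self-centralising Sylow `p`-subgroups. -/
def sylTest (N p : ℕ) : Bool :=
  (List.range p).any fun d =>
    decide (p * d ∣ N) && decide (d ∣ p - 1) && decide (N / (p * d) % p = 1)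

theorem test_seven_eleven : ∀ k ∈ Nat.divisors 285,
    (sylTest (77 * k) 7 && sylTest (77 * k) 11) = false := by decide +kernel

theorem test_seven_nineteen : ∀ k ∈ Nat.divisors 165,
    (sylTest (133 * k) 7 && sylTest (133 * k) 19) = false := by decide +kernel

theorem test_eleven_nineteen : ∀ k ∈ Nat.divisors 105, ¬ 7 ∣ k →
    (sylTest (209 * k) 11 && sylTest (209 * k) 19) = false := by decide +kernel

variable {X : Type*} [Group X] [Finite X]

theorem sylTest_of_dvd (f : X →* Cfsg.Spor.J1) (hf : Function.Injective f) {p : ℕ}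
    (hp : p = 7 ∨ p = 11 ∨ p = 19) (hd : p ∣ Nat.card X) : sylTest (Nat.card X) p = true := by
  have hpp : p.Prime := by rcases hp with rfl | rfl | rfl <;> norm_num
  haveI : Fact p.Prime := ⟨hpp⟩
  haveI : Finite Cfsg.Spor.J1 :=
    Nat.finite_of_card_ne_zero (by rw [SporB.J1.card_J1]; norm_num)
  have hXd : Nat.card X ∣ 175560 := SporB.J1.card_J1 ▸ card_dvd_of_injective f hf
  have hp2 : ¬ p ^ 2 ∣ Nat.card X := fun h => by
    have h' := h.trans hXd
    rcases hp with rfl | rfl | rfl <;> norm_num at h'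
  obtain ⟨P⟩ := (inferInstance : Nonempty (Sylow p X))
  have hPcard : Nat.card (P : Subgroup X) = p := by
    obtain ⟨k, hk⟩ := P.isPGroup'.exists_card_eq
    rcases k with _ | _ | k
    · exact absurd (hk ▸ (P.dvd_card_of_dvd_card hd) : p ∣ p ^ 0) (by simpa using hpp.one_lt.ne')
    · simpa using hk
    · exact absurd (((pow_dvd_pow p (by omega : 2 ≤ k + 2)).trans (dvd_of_eq hk.symm)).trans
        (card_subgroup_dvd_card _)) hp2
  obtain ⟨⟨x, hx⟩, hxo⟩ := exists_prime_orderOf_dvd_card' (G := (P : Subgroup X)) p (by rw [hPcard])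
  rw [Subgroup.orderOf_mk] at hxo
  have horder : ∀ y : X, p ∣ orderOf y → orderOf y = p := fun y hy => by
    rw [← orderOf_injective f hf] at hy ⊢
    exact SporB.J1.eq_of_dvd_orderOf hp hy
  -- the centraliser of the Sylow subgroup
  set C := centralizer ((P : Subgroup X) : Set X) with hC
  have hCp : IsPGroup p C := by
    rintro ⟨y, hy⟩
    refine ⟨1, Subtype.ext ?_⟩
    show y ^ (p ^ 1) = 1
    rw [pow_one]
    by_cases hpy : p ∣ orderOf y
    · exact (horder y hpy) ▸ pow_orderOf_eq_one y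
    · have hc : Commute y x := (mem_centralizer_iff.1 hy x hx).symm
      have hmul := hc.orderOf_mul_eq_mul_orderOf_of_coprime (hxo.symm ▸
        ((Nat.Prime.coprime_iff_not_dvd hpp).2 hpy).symm)
      rw [hxo] at hmul
      have := horder _ (Dvd.intro_left _ hmul.symm)
      rw [hmul] at this
      rw [orderOf_eq_one_iff.1 ((Nat.mul_eq_right hpp.ne_zero).1 this), one_pow]
  have hCcard : Nat.card C ∣ p := by
    obtain ⟨k, hk⟩ := hCp.exists_card_eq
    rcases k with _ | _ | k
    · simp [hk]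
    · rw [hk, zero_add, pow_one]
    · exact absurd (((pow_dvd_pow p (by omega : 2 ≤ k + 2)).trans (dvd_of_eq hk.symm)).trans
        (card_subgroup_dvd_card _)) hp2
  set N := normalizer ((P : Subgroup X) : Set X) with hN
  haveI : IsCyclic (P : Subgroup X) := isCyclic_of_prime_card hPcard
  have hNdvd : Nat.card N ∣ p * (p - 1) := by
    set g := (P : Subgroup X).normalizerMonoidHom with hg
    have h1 := g.ker.card_mul_index
    rw [index_ker] at h1
    have hk : Nat.card g.ker = Nat.card C := by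
      rw [hg, normalizerMonoidHom_ker]
      exact Nat.card_congr (subgroupOfEquivOfLe (centralizer_le_normalizer _)).toEquiv
    have hr : Nat.card g.range ∣ p - 1 := by
      have h2 := card_subgroup_dvd_card g.range
      rwa [IsCyclic.card_mulAut, hPcard, Nat.totient_prime hpp] at h2
    refine (dvd_of_eq h1.symm).trans ?_
    rw [hk]
    exact mul_dvd_mul hCcard hr
  have hPN : p ∣ Nat.card N := hPcard ▸ card_dvd_of_le le_normalizer
  obtain ⟨d, hdN⟩ := hPN
  have hd1 : d ∣ p - 1 := by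
    rw [hdN] at hNdvd
    exact (Nat.mul_dvd_mul_iff_left hpp.pos).1 hNdvd
  have hmul := N.card_mul_index
  rw [hdN] at hmul
  have hmod : N.index % p = 1 := by
    have h := card_sylow_modEq_one p X
    rw [Sylow.card_eq_index_normalizer P] at h
    exact Eq.trans h (Nat.mod_eq_of_lt hpp.one_lt)
  have hd0 : 0 < p * d := hdN ▸ Nat.card_pos
  rw [sylTest, List.any_eq_true]
  refine ⟨d, List.mem_range.2 ?_, ?_⟩
  · have := Nat.le_of_dvd (by have := hpp.two_le; omega) hd1
    have := hpp.two_le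
    omega
  · simp only [Bool.and_eq_true, decide_eq_true_eq]
    refine ⟨⟨Dvd.intro _ hmul, hd1⟩, ?_⟩
    rw [← hmul, Nat.mul_div_cancel_left _ hd0, hmod]

/-- At most one of 7, 11, 19 divides the order of an odd subgroup. -/
theorem odd_subgroup_bound (f : X →* Cfsg.Spor.J1) (hf : Function.Injective f)
    (hodd : Odd (Nat.card X)) :
    ¬ (7 ∣ Nat.card X ∧ 11 ∣ Nat.card X) ∧ ¬ (7 ∣ Nat.card X ∧ 19 ∣ Nat.card X) ∧
      ¬ (11 ∣ Nat.card X ∧ 19 ∣ Nat.card X) := by
  haveI : Finite Cfsg.Spor.J1 :=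
    Nat.finite_of_card_ne_zero (by rw [SporB.J1.card_J1]; norm_num)
  set N := Nat.card X with hN
  have hXd : N ∣ 8 * 21945 := by
    rw [show 8 * 21945 = 175560 from rfl, ← SporB.J1.card_J1]
    exact card_dvd_of_injective f hf
  have h21 : N ∣ 21945 :=
    (Nat.Coprime.pow_right 3 (Nat.coprime_two_right.2 hodd)).dvd_of_dvd_mul_left hXd
  have key : ∀ {m M p q : ℕ}, m * M = 21945 → m ∣ N → (p = 7 ∨ p = 11 ∨ p = 19) →
      (q = 7 ∨ q = 11 ∨ q = 19) → p ∣ N → q ∣ N →
      ∃ k ∈ Nat.divisors M, N = m * k ∧ (sylTest (m * k) p && sylTest (m * k) q) = true := by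
    intro m M p q hmM hmN hp hq hpN hqN
    obtain ⟨k, hk⟩ := hmN
    refine ⟨k, Nat.mem_divisors.2 ⟨?_, ?_⟩, hk, ?_⟩
    · rw [hk, ← hmM] at h21
      refine (Nat.mul_dvd_mul_iff_left ?_).1 h21
      exact Nat.pos_of_ne_zero fun h => by rw [h, zero_mul] at hmM; omega
    · intro h; rw [h, mul_zero] at hmM; omega
    · rw [← hk, Bool.and_eq_true]
      exact ⟨sylTest_of_dvd f hf hp hpN, sylTest_of_dvd f hf hq hqN⟩
  have h711 : ¬ (7 ∣ N ∧ 11 ∣ N) := fun ⟨h7, h11⟩ => by
    obtain ⟨k, hk, -, h⟩ := key (m := 77) (M := 285) (by norm_num)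
      (Nat.Coprime.mul_dvd_of_dvd_of_dvd (m := 7) (n := 11) (by norm_num) h7 h11)
      (Or.inl rfl) (Or.inr (Or.inl rfl)) h7 h11
    rw [test_seven_eleven k hk] at h
    exact Bool.noConfusion h
  refine ⟨h711, fun ⟨h7, h19⟩ => ?_, fun ⟨h11, h19⟩ => ?_⟩
  · obtain ⟨k, hk, -, h⟩ := key (m := 133) (M := 165) (by norm_num)
      (Nat.Coprime.mul_dvd_of_dvd_of_dvd (m := 7) (n := 19) (by norm_num) h7 h19)
      (Or.inl rfl) (Or.inr (Or.inr rfl)) h7 h19
    rw [test_seven_nineteen k hk] at h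
    exact Bool.noConfusion h
  · obtain ⟨k, hk, hNk, h⟩ := key (m := 209) (M := 105) (by norm_num)
      (Nat.Coprime.mul_dvd_of_dvd_of_dvd (m := 11) (n := 19) (by norm_num) h11 h19)
      (Or.inr (Or.inl rfl)) (Or.inr (Or.inr rfl)) h11 h19
    rw [test_eleven_nineteen k hk (fun h7 => h711 ⟨hNk ▸ h7.mul_left 209, h11⟩)] at h
    exact Bool.noConfusion h

end Cfsg.Agent.TwoWeak
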